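import Cfsg.Agent.Chev.G2Even.Involution


/-!
# The two classes of involutions of `G₂(2ᵏ)`
-/

set_option autoImplicit false
set_option linter.unusedSectionVars false
set_option maxRecDepth 100000

namespace CfsgLib.Chev.G2Even

open Cfsg.Lie CfsgLib.Chev Matrix

universe u

variable {F : Type u} [Field F] [CharP F 2]

/-- Conjugate inside the group to one of the two representatives. -/
def ConjRep (g : GL chevG2.Idx F) : Prop :=
  ∃ h ∈ chevG2.group F, h * g * h⁻¹ = X 11 1 ∨ h * g * h⁻¹ = X 9 1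

theorem ConjRep.of_conj {g g' k : GL chevG2.Idx F} (hk : k ∈ chevG2.group F)
    (e : k * g * k⁻¹ = g') (h : ConjRep g') : ConjRep g := by
  obtain ⟨h', hh', e'⟩ := h
  refine ⟨h' * k, mul_mem hh' hk, ?_⟩
  rwa [show h' * k * g * (h' * k)⁻¹ = h' * (k * g * k⁻¹) * h'⁻¹ by group, e]

theorem exists_nU_conj {q : ℕ} (hq : q < chevG2.rank) {r r' : ℕ} (hr : r < 12)
    (h : chevG2.reflectRoot q r = r') (t : F) :
    ∃ s : Fˣ, SG.nU (chevG2.simple q) 1 * X r t * (SG.nU (chevG2.simple q) 1)⁻¹ = X r' ((s : F) * t) := by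
  obtain ⟨s, hs⟩ := SG.acts_nU (F := F) hq ⟨r, hr⟩
  refine ⟨s, ?_⟩
  have e : ((SG.{u}.refl q ⟨r, hr⟩ : Fin chevG2.nroots) : ℕ) = r' := by
    rw [SG.refl_apply hq, SG.pi_reflect q hq _ (Fin.is_lt _)]; exact h
  have := hs t
  rw [e] at this
  exact this

theorem nU_mem (r : ℕ) : SG.nU r (1 : F) ∈ chevG2.group F := SG.wU_mem_group _

theorem refl_table :
    chevG2.reflectRoot 1 7 = 8 ∧ chevG2.reflectRoot 1 10 = 11 ∧ chevG2.reflectRoot 1 11 = 10 ∧
    chevG2.reflectRoot 0 6 = 10 ∧ chevG2.reflectRoot 0 9 = 8 ∧ chevG2.reflectRoot 0 8 = 9 ∧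
    chevG2.reflectRoot 0 11 = 11 := by decide +kernel

theorem rep_nine {d : F} (hd : d ≠ 0) : ConjRep (X 9 d) := by
  set v : Fˣ := (Units.mk0 d hd)⁻¹
  refine ⟨SG.hU 7 (v : F), SG.wU_mem_group _, Or.inr ?_⟩
  rw [SG.hU_eq_dg (show 7 < chevG2.nroots by decide)]
  show SG.dg _ * SG.xU 9 d * (SG.dg _)⁻¹ = SG.xU 9 1
  rw [SG.dg_conj_xU _ (show 9 < chevG2.nroots by decide)]
  have e : SG.chi (hz chevG2 7 v) 9 = v := by
    have h7 : chevG2.simple 0 = 7 ∧ chevG2.cartan 0 9 = 1 := by decide +kernel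
    rw [← h7.1, SG.chi_hz_simple (by decide) v (show 9 < chevG2.nroots by decide), h7.2, zpow_one]
  rw [e]
  congr 1
  simp [v, hd]

theorem rep_eleven {f : F} (hf : f ≠ 0) : ConjRep (X 11 f) := by
  set v : Fˣ := (Units.mk0 f hf)⁻¹
  refine ⟨SG.hU 6 (v : F), SG.wU_mem_group _, Or.inl ?_⟩
  rw [SG.hU_eq_dg (show 6 < chevG2.nroots by decide)]
  show SG.dg _ * SG.xU 11 f * (SG.dg _)⁻¹ = SG.xU 11 1
  rw [SG.dg_conj_xU _ (show 11 < chevG2.nroots by decide)]
  have e : SG.chi (hz chevG2 6 v) 11 = v := by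
    have h6 : chevG2.simple 1 = 6 ∧ chevG2.cartan 1 11 = 1 := by decide +kernel
    rw [← h6.1, SG.chi_hz_simple (by decide) v (show 11 < chevG2.nroots by decide), h6.2, zpow_one]
  rw [e]
  congr 1
  simp [v, hf]

/-- `x_r(t) P x_r(t)` for use as a conjugation. -/
theorem of_conj_X {r : ℕ} {g g' : GL chevG2.Idx F} (t : F) (e : X r t * g * X r t = g')
    (h : ConjRep g') : ConjRep g :=
  h.of_conj (X_mem_group r t) (by rwa [X_self_inv])

theorem conjX6 (b a c d e f t : F) : X 6 t * P b a c d e f * X 6 t =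
    P b a (a * t + c) (a ^ 2 * t + d) (a ^ 3 * t + e) (f + e * t + a ^ 2 * t * c) := by
  rw [show X 6 t * P b a c d e f = P (t + b) a c d e f by simp only [P, ← X_add 6 t b, mul_assoc], P_mul6]
  congr 1
  rw [add_comm t b, add_assoc, CharTwo.add_self_eq_zero, add_zero]

theorem conjX7 (b c d e f t : F) : X 7 t * P b 0 c d e f * X 7 t =
    P b 0 (t * b + c) (t ^ 2 * b + d)
      (t ^ 3 * b + e + (t ^ 2 * b + d) * t + (t * b + c) * t ^ 2)
      (t ^ 2 * b * c + f + (t * b + c) ^ 2 * t) := by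
  rw [show X 7 t * P b 0 c d e f = P 0 t 0 0 0 0 * X 6 b * X 8 c * X 9 d * X 10 e * X 11 f by simp [P, X_zero, mul_assoc]]
  simp only [P_mul6, P_mul8, P_mul9, P_mul10, P_mul11, zero_add, add_zero, mul_zero, zero_mul,
    zero_pow, ne_eq, OfNat.ofNat_ne_zero, not_false_iff]
  rw [P_mul7, CharTwo.add_self_eq_zero]

theorem conjX10 (b c d e f t : F) : X 10 t * P b 0 c d e f * X 10 t = P b 0 c d e (f + t * b) := by
  rw [show X 10 t * P b 0 c d e f = P 0 0 0 0 t 0 * X 6 b * X 8 c * X 9 d * X 10 e * X 11 f by simp [P, X_zero, mul_assoc]]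
  simp only [P_mul6, P_mul8, P_mul9, P_mul10, P_mul11, zero_add, add_zero, mul_zero, zero_mul,
    zero_pow, ne_eq, OfNat.ofNat_ne_zero, not_false_iff]
  congr 1
  · rw [add_comm t e, add_assoc, CharTwo.add_self_eq_zero, add_zero]
  · ring

theorem conjX8 (d e f t : F) : X 8 t * P 0 0 0 d e f * X 8 t = P 0 0 0 d e (f + d * t) := by
  rw [show X 8 t * P 0 0 0 d e f = P 0 0 t d e f by simp [P, X_zero, mul_assoc], P_mul8, CharTwo.add_self_eq_zero]

theorem rep_zero_bac {d e f : F} (h : ¬ (d = 0 ∧ e = 0 ∧ f = 0)) : ConjRep (P 0 0 0 d e f) := by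
  by_cases hd : d = 0
  · subst hd
    by_cases he : e = 0
    · subst he
      rw [P_single.1]
      exact rep_eleven fun hf => h ⟨rfl, rfl, hf⟩
    · refine of_conj_X (r := 6) (f / e) (conjX6 0 0 0 0 e f _) ?_
      simp only [zero_mul, add_zero, mul_zero, zero_add, zero_pow, ne_eq, OfNat.ofNat_ne_zero,
        not_false_iff, show f + e * (f / e) = 0 by rw [mul_div_cancel₀ _ he, CharTwo.add_self_eq_zero]]
      rw [P_single.2.1]
      obtain ⟨s, hs⟩ := exists_nU_conj (q := 1) (by decide) (r := 10) (by omega) refl_table.2.1 e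
      exact ConjRep.of_conj (nU_mem _) hs (rep_eleven (mul_ne_zero s.ne_zero he))
  · refine of_conj_X (r := 8) (f / d) (conjX8 d e f _) ?_
    rw [show f + d * (f / d) = 0 by rw [mul_div_cancel₀ _ hd, CharTwo.add_self_eq_zero]]
    refine of_conj_X (r := 7) (e / d) (conjX7 0 0 d e 0 _) ?_
    simp only [mul_zero, zero_mul, add_zero, zero_add, zero_pow, ne_eq, OfNat.ofNat_ne_zero,
      not_false_iff, show e + d * (e / d) = 0 by rw [mul_div_cancel₀ _ hd, CharTwo.add_self_eq_zero]]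
    rw [P_single.2.2.1]
    exact rep_nine hd

variable [Finite F]

theorem exists_sqrt (x : F) : ∃ y : F, y ^ 2 = x :=
  ⟨(frobeniusEquiv F 2).symm x, frobeniusEquiv_symm_pow_p (R := F) (p := 2) x⟩

theorem rep_zero_ba {c d e f : F} (hcd : c * d = 0) (h : ¬ (c = 0 ∧ d = 0 ∧ e = 0 ∧ f = 0)) :
    ConjRep (P 0 0 c d e f) := by
  by_cases hc : c = 0
  · subst hc
    exact rep_zero_bac fun h' => h ⟨rfl, h'⟩
  obtain rfl : d = 0 := (mul_eq_zero.1 hcd).resolve_left hc
  obtain ⟨t, ht⟩ := exists_sqrt (e / c)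
  refine of_conj_X (r := 7) t (conjX7 0 c 0 e f _) ?_
  have he : e + c * t ^ 2 = 0 := by rw [ht, mul_div_cancel₀ _ hc, CharTwo.add_self_eq_zero]
  simp only [mul_zero, zero_mul, add_zero, zero_add, he]
  set f' := f + c ^ 2 * t
  obtain ⟨s, hs⟩ := exists_nU_conj (q := 0) (by decide) (r := 8) (by omega) refl_table.2.2.2.2.2.1 c
  obtain ⟨s', hs'⟩ := exists_nU_conj (q := 0) (by decide) (r := 11) (by omega) refl_table.2.2.2.2.2.2 f'
  refine ConjRep.of_conj (k := SG.nU (chevG2.simple 0) 1) (g' := P 0 0 0 ((s : F) * c) 0 ((s' : F) * f'))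
    (nU_mem _) ?_ (rep_zero_bac fun h' => mul_ne_zero s.ne_zero hc h'.1)
  simp only [P, X_zero, one_mul, mul_one]
  rw [← hs, ← hs']; group

theorem rep_zero_a {b c d e f : F} (hrel : b * e + c * d = 0)
    (h : ¬ (b = 0 ∧ c = 0 ∧ d = 0 ∧ e = 0 ∧ f = 0)) : ConjRep (P b 0 c d e f) := by
  by_cases hb : b = 0
  · subst hb
    exact rep_zero_ba (by simpa using hrel) fun h' => h ⟨rfl, h'⟩
  refine of_conj_X (r := 7) (c / b) (conjX7 b c d e f _) ?_
  have hc : c / b * b + c = 0 := by rw [div_mul_cancel₀ _ hb, CharTwo.add_self_eq_zero]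
  have he : (c / b) ^ 3 * b + e + ((c / b) ^ 2 * b + d) * (c / b) + (c / b * b + c) * (c / b) ^ 2 = 0 := by
    have key : (c / b) * b = c := div_mul_cancel₀ _ hb
    rw [hc, zero_mul, add_zero]
    apply mul_left_cancel₀ hb
    rw [mul_zero]
    linear_combination hrel + (d + 2 * ((c / b) ^ 2 * b)) * key + ((c / b) ^ 2 * b * c) * CharTwo.two_eq_zero (R := F)
  rw [he, hc]
  set d' := (c / b) ^ 2 * b + d
  set f' := (c / b) ^ 2 * b * c + f + (0 : F) ^ 2 * (c / b)
  refine of_conj_X (r := 10) (f' / b) (conjX10 b 0 d' 0 f' _) ?_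
  rw [show f' + f' / b * b = 0 by rw [div_mul_cancel₀ _ hb, CharTwo.add_self_eq_zero]]
  obtain ⟨s, hs⟩ := exists_nU_conj (q := 0) (by decide) (r := 6) (by omega) refl_table.2.2.2.1 b
  obtain ⟨s', hs'⟩ := exists_nU_conj (q := 0) (by decide) (r := 9) (by omega) refl_table.2.2.2.2.1 d'
  by_cases hd : d' = 0
  · refine ConjRep.of_conj (k := SG.nU (chevG2.simple 0) 1) (g' := P 0 0 0 0 ((s : F) * b) 0)
      (nU_mem _) ?_ (rep_zero_bac fun h' => mul_ne_zero s.ne_zero hb h'.2.1)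
    simp only [P, hd, X_zero, one_mul, mul_one]
    exact hs
  · refine of_conj_X (r := 7) 0 rfl ?_
    simp only [X_zero, one_mul, mul_one]
    refine ConjRep.of_conj (k := SG.nU (chevG2.simple 0) 1) (g' := P 0 0 ((s' : F) * d') 0 ((s : F) * b) 0)
      (nU_mem _) ?_ (rep_zero_ba (by simp) fun h' => mul_ne_zero s'.ne_zero hd h'.1)
    have hcomm : X 10 ((s : F) * b) * X 8 ((s' : F) * d') = X 8 ((s' : F) * d') * X 10 ((s : F) * b) :=
      X_comm (by omega) (by omega) (by omega) (by decide) (by decide +kernel) _ _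
    simp only [P, X_zero, one_mul, mul_one]
    rw [← hcomm, ← hs, ← hs']; group

theorem rep_pos {g : GL chevG2.Idx F} (hg : g ∈ chevG2.posUnipotent F) (h1 : g ≠ 1)
    (h2 : g * g = 1) : ConjRep g := by
  obtain ⟨b, a, c, d, e, f, rfl⟩ := exists_P hg
  have hinv := inv_eq_of_mul_eq_one_right h2
  rw [P_inv_eq] at hinv
  obtain ⟨-, -, hC, hD, hE, hF⟩ := P_inj hinv
  have hab : a * b = 0 := by linear_combination hC
  by_cases ha : a = 0
  · subst ha
    refine rep_zero_a (by linear_combination hF) ?_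
    rintro ⟨rfl, rfl, rfl, rfl, rfl⟩
    exact h1 P_zero
  obtain rfl : b = 0 := (mul_eq_zero.1 hab).resolve_left ha
  have hd : d = a * c := by
    have : a * (d + a * c) = 0 := by linear_combination hE
    rwa [mul_eq_zero, or_iff_right ha, CharTwo.add_eq_zero] at this
  subst hd
  refine of_conj_X (r := 6) (c / a) (conjX6 0 a c (a * c) e f _) ?_
  have hc : a * (c / a) + c = 0 := by rw [mul_div_cancel₀ _ ha, CharTwo.add_self_eq_zero]
  have hd : a ^ 2 * (c / a) + a * c = 0 := by linear_combination a * hc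
  rw [hc, hd]
  set e' := a ^ 3 * (c / a) + e
  set f' := f + e * (c / a) + a ^ 2 * (c / a) * c
  obtain ⟨s, hs⟩ := exists_nU_conj (q := 1) (by decide) (r := 7) (by omega) refl_table.1 a
  obtain ⟨s', hs'⟩ := exists_nU_conj (q := 1) (by decide) (r := 10) (by omega) refl_table.2.1 e'
  obtain ⟨s'', hs''⟩ := exists_nU_conj (q := 1) (by decide) (r := 11) (by omega) refl_table.2.2.1 f'
  refine ConjRep.of_conj (k := SG.nU (chevG2.simple 1) 1)
    (g' := P 0 0 ((s : F) * a) 0 ((s'' : F) * f') ((s' : F) * e'))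
    (nU_mem _) ?_ (rep_zero_ba (by simp) fun h' => mul_ne_zero s.ne_zero ha h'.1)
  simp only [P, X_zero, one_mul, mul_one]
  rw [mul_assoc (X 8 _) (X 10 _), X11_comm 10 (by omega) (by omega), ← mul_assoc, ← hs, ← hs', ← hs'']
  group

theorem conjRep_of_sq {g : GL chevG2.Idx F} (hg : g ∈ chevG2.group F) (h1 : g ≠ 1) (h2 : g * g = 1) :
    ConjRep g := by
  haveI : Fact (Nat.Prime 2) := ⟨Nat.prime_two⟩
  haveI : Finite (GL chevG2.Idx F) := Sys.finite_GL
  set U := (chevG2.posUnipotent F).subgroupOf (chevG2.group F) with hU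
  have hp : IsPGroup 2 U := by
    haveI := Fintype.ofFinite F
    obtain ⟨n, -, hn⟩ := FiniteField.card F 2
    have hc : Nat.card U = Nat.card F ^ 6 := by
      rw [hU, Nat.card_congr (Subgroup.subgroupOfEquivOfLe SG.pos_le_group).toEquiv, SG.card_pos]; rfl
    refine IsPGroup.of_card (n := (n : ℕ) * 6) ?_
    rw [hc, Nat.card_eq_fintype_card, hn, ← pow_mul]
  set T : Sylow 2 (chevG2.group F) := hp.toSylow (SG.not_dvd_index_pos 2)
  set x : chevG2.group F := ⟨g, hg⟩
  have hx : IsPGroup 2 (Subgroup.zpowers x) := by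
    refine IsPGroup.of_card (n := 1) ?_
    rw [Nat.card_zpowers, pow_one]
    exact orderOf_eq_prime (Subtype.ext (by rw [pow_two]; exact h2)) fun e => h1 (congrArg Subtype.val e)
  obtain ⟨Q, hQ⟩ := hx.exists_le_sylow
  obtain ⟨k, hk⟩ := MulAction.exists_smul_eq (chevG2.group F) T Q
  have hm : x ∈ (Q : Subgroup (chevG2.group F)) := hQ (Subgroup.mem_zpowers x)
  rw [← hk, Sylow.coe_subgroup_smul, Subgroup.mem_pointwise_smul_iff_inv_smul_mem] at hm
  have e : ((MulAut.conj k)⁻¹ • x : chevG2.group F) = k⁻¹ * x * k := by simp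
  rw [e] at hm
  have hmem : (k : GL chevG2.Idx F)⁻¹ * g * k ∈ chevG2.posUnipotent F := hm
  refine ConjRep.of_conj (k := (k : GL chevG2.Idx F)⁻¹) (inv_mem k.2) (by rw [inv_inv]) (rep_pos hmem ?_ ?_)
  · intro e'
    apply h1
    have := congrArg (fun y => (k : GL chevG2.Idx F) * y * (k : GL chevG2.Idx F)⁻¹) e'
    simp only [mul_one, mul_inv_cancel] at this
    rw [← this]; group
  · calc _ = (k : GL chevG2.Idx F)⁻¹ * (g * g) * k := by group
      _ = 1 := by rw [h2, mul_one, inv_mul_cancel]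

/-- Representatives are not conjugate. -/
theorem not_conj {h : GL chevG2.Idx F} (hh : h ∈ chevG2.group F) : h * X 11 1 * h⁻¹ ≠ X 9 1 := by
  intro e
  obtain ⟨b, hb, n, hn, b', hb', rfl⟩ := SG.exists_bnb hh
  obtain ⟨u₁, hu₁, h₁, hh₁, rfl⟩ := SG.mem_borel_iff.1 hb
  obtain ⟨h₂, hh₂, u₃, hu₃, rfl⟩ := SG.mem_borel_right hb'
  have hm : h₁ * n * h₂ ∈ chevG2.monomialSubgroup F :=
    mul_mem (mul_mem (SG.diag_le_mono hh₁) hn) (SG.diag_le_mono hh₂)
  obtain ⟨w, hwW, hw⟩ := SG.exists_acts hm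
  obtain ⟨L, hL, rfl⟩ := weyl_words hwW
  obtain ⟨s, hs⟩ := hw (11 : Fin 12)
  have hu : u₃ * X 11 1 * u₃⁻¹ = X 11 1 := by
    have h' := Subgroup.mem_centralizer_singleton_iff.1 (SG.pos_centralizes_top (by decide) (1 : F) hu₃)
    rw [show SG.xU (chevG2.nroots - 1) (1 : F) = X 11 1 from rfl] at h'
    rw [h', mul_inv_cancel_right]
  obtain ⟨a, c, e1⟩ := conj_pos_nine hu₁
  set r : ℕ := ((SG.{u}.wprod L (11 : Fin 12) : Fin chevG2.nroots) : ℕ) with hr
  have key : X r ((s : F) * 1) = Lx 1 a c := by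
    rw [← e1, ← e]
    show SG.xU r ((s : F) * 1) = _
    rw [hr, ← hs 1]
    show h₁ * n * h₂ * X 11 (1 : F) * (h₁ * n * h₂)⁻¹ = _
    conv_lhs => rw [← hu]
    group
  have hlong : r ∈ longs := (words_long.{u} L hL (11 : Fin 12)).2 (by decide)
  by_cases h6 : r < 6
  · have hmem : X r ((s : F) * 1) ∈ chevG2.posUnipotent F := key ▸ P_mem _ _ _ _ _ _
    have := SG.pos_of_xU_mem (show r < chevG2.nroots by
      exact (SG.{u}.wprod L (11 : Fin 12)).2) (mul_ne_zero s.ne_zero one_ne_zero) hmem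
    have h' : 6 ≤ r := this
    omega
  · simp only [longs, List.mem_cons, List.not_mem_nil, or_false] at hlong
    obtain h' | h' | h' : r = 6 ∨ r = 10 ∨ r = 11 := by omega
    all_goals rw [h'] at key
    · rw [← P_single.2.2.2.2.2] at key
      exact one_ne_zero (P_inj key).2.2.2.1.symm
    · rw [← P_single.2.1] at key
      exact one_ne_zero (P_inj key).2.2.2.1.symm
    · rw [← P_single.1] at key
      exact one_ne_zero (P_inj key).2.2.2.1.symm

/-- The centralizer of `x_{3a+2b}(1)`. -/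
theorem centralizer_eleven : chevG2.group F ⊓ Subgroup.centralizer {X 11 (1 : F)} =
    chevG2.posUnipotent F ⊔ chevG2.rootSubgroup F 4 := by
  have h := SG.group_inf_centralizer_top (F := F) (k := 1) (by decide) (by decide) (by decide +kernel)
    (by decide +kernel) (by decide +kernel)
  rw [show (chevG2.nroots - 1) = 11 from rfl] at h
  rw [show X 11 (1 : F) = SG.xU 11 1 from rfl, h, Sys.topK, SG.rootSubgroup_eq]
  have hneg : chevG2.neg (chevG2.simple 0) = 4 := by decide +kernel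
  refine congrArg (fun K => chevG2.posUnipotent F ⊔ Subgroup.closure K) (Set.ext fun g => ⟨?_, ?_⟩)
  · rintro ⟨q, t, hq, hqk, rfl⟩
    obtain rfl : q = 0 := by
      have : q < 2 := hq
      omega
    exact ⟨t, by rw [hneg]⟩
  · rintro ⟨t, rfl⟩
    exact ⟨0, t, by decide, by omega, by rw [hneg]⟩

theorem centralizer_nine : chevG2.group F ⊓ Subgroup.centralizer {X 9 (1 : F)} = cent9 F := by
  refine le_antisymm (fun g hg => ?_) cent9_le
  obtain ⟨h1, h2⟩ := Subgroup.mem_inf.1 hg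
  exact mem_cent9 h1 (Subgroup.mem_centralizer_singleton_iff.1 h2)

end CfsgLib.Chev.G2Even
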