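import Cfsg.Agent.Chev.G2Even.Normal
import Cfsg.Agent.Chev.AutThm.Normalizer


/-!
# Involutions of `G₂(2ᵏ)`

Centralisers of `x_{3a+2b}(1)` and `x_{2a+b}(1)` and the two conjugacy classes.
-/

set_option autoImplicit false
set_option linter.unusedSectionVars false
set_option maxRecDepth 100000

namespace CfsgLib.Chev.G2Even

open Cfsg.Lie CfsgLib.Chev Matrix

universe u

variable {F : Type u} [Field F] [CharP F 2]

theorem X_inj {r : ℕ} (hr : r < 12) {t u : F} (h : X r t = X r u) : t = u :=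
  SG.coef_eq (show r < chevG2.nroots from hr) h

theorem X_self_inv (r : ℕ) (t : F) : (X r t)⁻¹ = X r t := by
  simp [X, Sys.xU_inv, CharTwo.neg_eq]

theorem X_zero (r : ℕ) : X r (0 : F) = 1 := SG.xU_zero r

theorem X_sq (r : ℕ) (t : F) : X r t * X r t = 1 := by
  rw [X_add, CharTwo.add_self_eq_zero]; simp

theorem X_mem_group (r : ℕ) (t : F) : X r t ∈ chevG2.group F := SG.xU_mem_group r t

theorem X_mem_pos {r : ℕ} (h : 6 ≤ r) (h' : r < 12) (t : F) : X r t ∈ chevG2.posUnipotent F :=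
  SG.xU_mem_posUnipotent (by exact h) (show r < chevG2.nroots from h') t

/-- The twelve reduced words. -/
def words : List (List ℕ) :=
  [[], [0], [1], [0, 1], [1, 0], [0, 1, 0], [1, 0, 1], [0, 1, 0, 1], [1, 0, 1, 0], [0, 1, 0, 1, 0],
    [1, 0, 1, 0, 1], [0, 1, 0, 1, 0, 1]]

theorem words_step : ∀ q < 2, ∀ L ∈ words, ∃ L' ∈ words,
    (List.ofFn fun r : Fin chevG2.nroots => ((SG.{u}.wprod (q :: L) r : Fin chevG2.nroots) : ℕ)) =
      List.ofFn fun r : Fin chevG2.nroots => ((SG.{u}.wprod L' r : Fin chevG2.nroots) : ℕ) := by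
  decide +kernel

theorem weyl_words {w : Equiv.Perm (Fin chevG2.nroots)} (hw : w ∈ SG.{u}.weyl) :
    ∃ L ∈ words, w = SG.{u}.wprod L := by
  obtain ⟨L, hL, rfl⟩ := SG.{u}.exists_wprod hw
  clear hw
  induction L with
  | nil => exact ⟨[], by simp [words], rfl⟩
  | cons q L ih =>
    obtain ⟨L₁, h1, e1⟩ := ih fun x hx => hL x (List.mem_cons_of_mem _ hx)
    obtain ⟨L₂, h2, e2⟩ := words_step.{u} q (hL q (List.mem_cons_self ..)) L₁ h1
    refine ⟨L₂, h2, ?_⟩
    rw [Sys.wprod_cons, e1, ← Sys.wprod_cons]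
    exact Equiv.ext fun r => Fin.ext (congrFun (List.ofFn_inj.1 e2) r)

/-- The long roots. -/
def longs : List ℕ := [0, 1, 5, 6, 10, 11]

theorem words_long : ∀ L ∈ words, ∀ r : Fin chevG2.nroots,
    (((SG.{u}.wprod L r : Fin chevG2.nroots) : ℕ) ∈ longs ↔ (r : ℕ) ∈ longs) := by
  decide +kernel

theorem words_fix_nine : ∀ L ∈ words,
    ((SG.{u}.wprod L (9 : Fin 12) : Fin chevG2.nroots) : ℕ) = 9 → L = [] ∨ L = [1] := by
  decide +kernel

/-- `x_{2a+b}(1)` times the part killed by conjugation. -/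
noncomputable def Lx (α β γ : F) : GL chevG2.Idx F := P 0 0 0 α β γ

theorem Lx_eq (α β γ : F) : Lx α β γ = X 9 α * X 10 β * X 11 γ := by simp [Lx, P]

theorem Lx_mul (α β γ α' β' γ' : F) : Lx α β γ * Lx α' β' γ' = Lx (α + α') (β + β') (γ + γ') := by
  rw [Lx_eq α', Lx, ← mul_assoc, ← mul_assoc, P_mul9, P_mul10, P_mul11]; rfl

theorem nine_mul (b a c d e f : F) :
    X 9 (1 : F) * P b a c d e f = P b a c (1 + d) (a + e) (c + f) := by
  rw [← P_single.2.2.1 1, P_mul, P_mul6, P_mul7, P_mul8, P_mul9, P_mul10, P_mul11]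
  simp only [zero_add, mul_zero, add_zero, zero_mul, mul_one, one_mul, zero_pow, ne_eq,
    OfNat.ofNat_ne_zero, not_false_iff]

theorem conj_nine (b a c d e f : F) :
    (P b a c d e f)⁻¹ * X 9 1 * P b a c d e f = Lx 1 a c := by
  rw [mul_assoc, inv_mul_eq_iff_eq_mul, nine_mul, Lx_eq, ← mul_assoc, ← mul_assoc, P_mul9, P_mul10, P_mul11]
  ring_nf

theorem conj_pos_nine {u : GL chevG2.Idx F} (hu : u ∈ chevG2.posUnipotent F) :
    ∃ a c : F, u⁻¹ * X 9 1 * u = Lx 1 a c := by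
  obtain ⟨b, a, c, d, e, f, rfl⟩ := exists_P hu
  exact ⟨a, c, conj_nine b a c d e f⟩

theorem mem_zero_ac {r : ℕ} (hr : r = 6 ∨ r = 10 ∨ r = 11) (b d e f t : F) :
    ∃ b' d' e' f' : F, P b 0 0 d e f * X r t = P b' 0 0 d' e' f' ∧ d' = d := by
  rcases hr with rfl | rfl | rfl
  · exact ⟨b + t, d, e, f + e * t, by rw [P_mul6]; ring_nf, rfl⟩
  · exact ⟨b, d, e + t, f, P_mul10 _ _ _ _ _ _ _, rfl⟩
  · exact ⟨b, d, e, f + t, P_mul11 _ _ _ _ _ _ _, rfl⟩

/-- A monomial element conjugating `Lx 1 a' c'` to `Lx 1 a c` fixes the root `2a+b`. -/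
theorem fix_nine {n : GL chevG2.Idx F} {w : Equiv.Perm (Fin chevG2.nroots)} (hwW : w ∈ SG.{u}.weyl)
    (hw : SG.Acts n w) {a c a' c' : F} (h : n * Lx 1 a' c' * n⁻¹ = Lx 1 a c) :
    ((w (9 : Fin 12) : Fin chevG2.nroots) : ℕ) = 9 := by
  classical
  obtain ⟨L, hL, rfl⟩ := weyl_words hwW
  obtain ⟨s9, h9⟩ := hw (9 : Fin 12)
  obtain ⟨s10, h10⟩ := hw (10 : Fin 12)
  obtain ⟨s11, h11⟩ := hw (11 : Fin 12)
  set r9 : ℕ := ((SG.{u}.wprod L (9 : Fin 12) : Fin chevG2.nroots) : ℕ) with hr9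
  set r10 : ℕ := ((SG.{u}.wprod L (10 : Fin 12) : Fin chevG2.nroots) : ℕ) with hr10
  set r11 : ℕ := ((SG.{u}.wprod L (11 : Fin 12) : Fin chevG2.nroots) : ℕ) with hr11
  have hb : ∀ r : Fin chevG2.nroots, ((SG.{u}.wprod L r : Fin chevG2.nroots) : ℕ) < 12 := fun r =>
    (SG.{u}.wprod L r).2
  have himg : ∀ α β γ : F, n * Lx α β γ * n⁻¹ =
      X r9 ((s9 : F) * α) * X r10 ((s10 : F) * β) * X r11 ((s11 : F) * γ) := by
    intro α β γ
    show n * Lx α β γ * n⁻¹ = SG.xU r9 _ * SG.xU r10 _ * SG.xU r11 _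
    rw [hr9, hr10, hr11, ← h9 α, ← h10 β, ← h11 γ, Lx_eq]
    show n * (SG.xU 9 α * SG.xU 10 β * SG.xU 11 γ) * n⁻¹ = _
    simp only [mul_assoc, inv_mul_cancel_left]
    rfl
  by_cases hneg : r9 < 6
  · exfalso
    set β₀ : F := if r10 < 6 then a' else 0 with hβ
    set γ₀ : F := if r11 < 6 then c' else 0 with hγ
    have hpos : n * Lx 0 (a' + β₀) (c' + γ₀) * n⁻¹ ∈ chevG2.posUnipotent F := by
      rw [himg, mul_zero, X_zero, one_mul]
      refine mul_mem ?_ ?_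
      · by_cases h6 : r10 < 6
        · rw [hβ, if_pos h6, CharTwo.add_self_eq_zero, mul_zero, X_zero]; exact one_mem _
        · exact X_mem_pos (not_lt.1 h6) (hb _) _
      · by_cases h6 : r11 < 6
        · rw [hγ, if_pos h6, CharTwo.add_self_eq_zero, mul_zero, X_zero]; exact one_mem _
        · exact X_mem_pos (not_lt.1 h6) (hb _) _
    have hneg' : n * Lx 1 β₀ γ₀ * n⁻¹ ∈ chevG2.negUnipotent F := by
      have key : ∀ r < 6, ∀ t : F, X r t ∈ chevG2.negUnipotent F := fun r hr t =>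
        SG.xU_mem_neg (by exact hr) t
      rw [himg]
      refine mul_mem (mul_mem (key _ hneg _) ?_) ?_
      · by_cases h6 : r10 < 6
        · exact key _ h6 _
        · rw [hβ, if_neg h6, mul_zero, X_zero]; exact one_mem _
      · by_cases h6 : r11 < 6
        · exact key _ h6 _
        · rw [hγ, if_neg h6, mul_zero, X_zero]; exact one_mem _
    have hprod : (n * Lx 0 (a' + β₀) (c' + γ₀) * n⁻¹) * (n * Lx 1 β₀ γ₀ * n⁻¹) = Lx 1 a c := by
      rw [← h, show n * Lx 0 (a' + β₀) (c' + γ₀) * n⁻¹ * (n * Lx 1 β₀ γ₀ * n⁻¹) =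
        n * (Lx 0 (a' + β₀) (c' + γ₀) * Lx 1 β₀ γ₀) * n⁻¹ by group, Lx_mul, zero_add, add_assoc,
        add_assoc, CharTwo.add_self_eq_zero, CharTwo.add_self_eq_zero, add_zero, add_zero]
    have hmem : n * Lx 1 β₀ γ₀ * n⁻¹ ∈ chevG2.posUnipotent F := by
      rw [eq_inv_mul_of_mul_eq hprod]
      exact mul_mem (inv_mem hpos) (P_mem _ _ _ _ _ _)
    have h1 : n * Lx 1 β₀ γ₀ * n⁻¹ = 1 := by
      have := Subgroup.mem_inf.2 ⟨hmem, hneg'⟩
      rwa [SG.pos_inf_neg, Subgroup.mem_bot] at this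
    have h2 : Lx 1 β₀ γ₀ = 1 := by rwa [mul_inv_eq_one, mul_eq_left] at h1
    rw [Lx, ← P_zero] at h2
    exact one_ne_zero (P_inj h2).2.2.2.1
  · have h' := h
    rw [himg, mul_one] at h'
    by_contra hne
    have hlong : r9 ∉ longs := fun hm => absurd ((words_long.{u} L hL (9 : Fin 12)).1 hm) (by decide)
    have hcase : r9 = 7 ∨ r9 = 8 := by
      have := hb (9 : Fin 12)
      simp only [longs, List.mem_cons, List.not_mem_nil, or_false] at hlong
      omega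
    have hcomp : ∀ (r : ℕ) (s : F), r < 12 → (r ∈ longs) → (r < 6 → s = 0) →
        ∀ b d e f : F, ∃ b' d' e' f' : F, P b 0 0 d e f * X r s = P b' 0 0 d' e' f' ∧ d' = d := by
      intro r s hr hl hz b d e f
      by_cases h6 : r < 6
      · exact ⟨b, d, e, f, by rw [hz h6, X_zero, mul_one], rfl⟩
      · refine mem_zero_ac ?_ b d e f s
        simp only [longs, List.mem_cons, List.not_mem_nil, or_false] at hl
        omega
    have hl10 : r10 ∈ longs := (words_long.{u} L hL (10 : Fin 12)).2 (by decide)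
    have hl11 : r11 ∈ longs := (words_long.{u} L hL (11 : Fin 12)).2 (by decide)
    have hlt9 : ¬ r9 < 6 := hneg
    have hz : (r10 < 6 → (s10 : F) * a' = 0) ∧ (r11 < 6 → (s11 : F) * c' = 0) := by
      set β₀ : F := if r10 < 6 then a' else 0 with hβ
      set γ₀ : F := if r11 < 6 then c' else 0 with hγ
      have hneg' : n * Lx 0 β₀ γ₀ * n⁻¹ ∈ chevG2.negUnipotent F := by
        rw [himg, mul_zero, X_zero, one_mul]
        refine mul_mem ?_ ?_
        · by_cases h6 : r10 < 6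
          · exact SG.xU_mem_neg (by exact h6) _
          · rw [hβ, if_neg h6, mul_zero, X_zero]; exact one_mem _
        · by_cases h6 : r11 < 6
          · exact SG.xU_mem_neg (by exact h6) _
          · rw [hγ, if_neg h6, mul_zero, X_zero]; exact one_mem _
      have hpos : n * Lx 1 (a' + β₀) (c' + γ₀) * n⁻¹ ∈ chevG2.posUnipotent F := by
        rw [himg]
        refine mul_mem (mul_mem (X_mem_pos (not_lt.1 hneg) (hb _) _) ?_) ?_
        · by_cases h6 : r10 < 6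
          · rw [hβ, if_pos h6, CharTwo.add_self_eq_zero, mul_zero, X_zero]; exact one_mem _
          · exact X_mem_pos (not_lt.1 h6) (hb _) _
        · by_cases h6 : r11 < 6
          · rw [hγ, if_pos h6, CharTwo.add_self_eq_zero, mul_zero, X_zero]; exact one_mem _
          · exact X_mem_pos (not_lt.1 h6) (hb _) _
      have hprod : (n * Lx 1 (a' + β₀) (c' + γ₀) * n⁻¹) * (n * Lx 0 β₀ γ₀ * n⁻¹) = Lx 1 a c := by
        rw [← h, show n * Lx 1 (a' + β₀) (c' + γ₀) * n⁻¹ * (n * Lx 0 β₀ γ₀ * n⁻¹) =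
          n * (Lx 1 (a' + β₀) (c' + γ₀) * Lx 0 β₀ γ₀) * n⁻¹ by group, Lx_mul, add_zero, add_assoc,
          add_assoc, CharTwo.add_self_eq_zero, CharTwo.add_self_eq_zero, add_zero, add_zero]
      have hmem : n * Lx 0 β₀ γ₀ * n⁻¹ ∈ chevG2.posUnipotent F := by
        rw [eq_inv_mul_of_mul_eq hprod]
        exact mul_mem (inv_mem hpos) (P_mem _ _ _ _ _ _)
      have h1 : n * Lx 0 β₀ γ₀ * n⁻¹ = 1 := by
        have := Subgroup.mem_inf.2 ⟨hmem, hneg'⟩
        rwa [SG.pos_inf_neg, Subgroup.mem_bot] at this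
      have h2 : Lx 0 β₀ γ₀ = 1 := by rwa [mul_inv_eq_one, mul_eq_left] at h1
      rw [Lx, ← P_zero] at h2
      obtain ⟨-, -, -, -, e1, e2⟩ := P_inj h2
      exact ⟨fun h6 => by rw [hβ, if_pos h6] at e1; rw [e1, mul_zero],
        fun h6 => by rw [hγ, if_pos h6] at e2; rw [e2, mul_zero]⟩
    have hX : X r9 (s9 : F) = Lx 1 a c * X r11 ((s11 : F) * c') * X r10 ((s10 : F) * a') := by
      rw [← h']
      simp only [mul_assoc, ← mul_assoc (X r11 _) (X r11 _), X_sq, one_mul, mul_one]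
    obtain ⟨b1, d1, e1, f1, hB, hd1⟩ := hcomp r11 ((s11 : F) * c') (hb _) hl11 hz.2 0 1 a c
    obtain ⟨b2, d2, e2, f2, hA, -⟩ := hcomp r10 ((s10 : F) * a') (hb _) hl10 hz.1 b1 d1 e1 f1
    rw [show Lx (1 : F) a c = P 0 0 0 1 a c from rfl, hB, hA] at hX
    rcases hcase with e | e <;> rw [e] at hX
    · rw [← P_single.2.2.2.2.1] at hX
      exact s9.ne_zero (P_inj hX).2.1
    · rw [← P_single.2.2.2.1] at hX
      exact s9.ne_zero (P_inj hX).2.2.1

/-- The centralizer of `x_{2a+b}(1)`. -/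
noncomputable def cent9 (F : Type u) [Field F] : Subgroup (GL chevG2.Idx F) :=
  chevG2.rootSubgroup F 9 ⊔ chevG2.rootSubgroup F 10 ⊔ chevG2.rootSubgroup F 11 ⊔
    chevG2.rootSubgroup F 6 ⊔ chevG2.rootSubgroup F 5

theorem X_mem_root (r : ℕ) (t : F) : X r t ∈ chevG2.rootSubgroup F r := by
  rw [SG.rootSubgroup_eq]; exact Subgroup.subset_closure ⟨t, rfl⟩

theorem X_mem_cent9 {r : ℕ} (hr : r = 9 ∨ r = 10 ∨ r = 11 ∨ r = 6 ∨ r = 5) (t : F) :
    X r t ∈ cent9 F := by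
  rcases hr with rfl | rfl | rfl | rfl | rfl
  · exact Subgroup.mem_sup_left (Subgroup.mem_sup_left (Subgroup.mem_sup_left (Subgroup.mem_sup_left (X_mem_root _ _))))
  · exact Subgroup.mem_sup_left (Subgroup.mem_sup_left (Subgroup.mem_sup_left (Subgroup.mem_sup_right (X_mem_root _ _))))
  · exact Subgroup.mem_sup_left (Subgroup.mem_sup_left (Subgroup.mem_sup_right (X_mem_root _ _)))
  · exact Subgroup.mem_sup_left (Subgroup.mem_sup_right (X_mem_root _ _))
  · exact Subgroup.mem_sup_right (X_mem_root _ _)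

theorem cent9_le : cent9 F ≤ chevG2.group F ⊓ Subgroup.centralizer {X 9 (1 : F)} := by
  have key : ∀ r, r = 9 ∨ r = 10 ∨ r = 11 ∨ r = 6 ∨ r = 5 → chevG2.rootSubgroup F r ≤
      chevG2.group F ⊓ Subgroup.centralizer {X 9 (1 : F)} := by
    intro r hr
    rw [SG.rootSubgroup_eq, Subgroup.closure_le]
    rintro _ ⟨t, rfl⟩
    refine Subgroup.mem_inf.2 ⟨X_mem_group r t, Subgroup.mem_centralizer_singleton_iff.2 ?_⟩
    rcases hr with rfl | rfl | rfl | rfl | rfl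
    · show X 9 t * X 9 1 = X 9 1 * X 9 t; rw [X_add, X_add, add_comm]
    all_goals exact X_comm (by omega) (by omega) (by omega) (by decide) (by decide +kernel) t 1
  exact sup_le (sup_le (sup_le (sup_le (key 9 (by omega)) (key 10 (by omega))) (key 11 (by omega)))
    (key 6 (by omega))) (key 5 (by omega))

theorem P_mem_cent9 (b d e f : F) : P b 0 0 d e f ∈ cent9 F := by
  simp only [P, X_zero, mul_one]
  exact mul_mem (mul_mem (mul_mem (X_mem_cent9 (by omega) b) (X_mem_cent9 (by omega) d))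
    (X_mem_cent9 (by omega) e)) (X_mem_cent9 (by omega) f)

theorem chi_vals : chevG2.simple 1 = 6 ∧ chevG2.simple 0 = 7 ∧ chevG2.neg 6 = 5 ∧
    cr chevG2 6 0 = -1 ∧ cr chevG2 6 1 = 2 := by decide +kernel

theorem chi_nine (z : ℕ → Fˣ) : SG.chi z 9 = z 0 ^ 2 * z 1 := by
  have hv : SG.{u}.vec 9 0 = 2 ∧ SG.{u}.vec 9 1 = 1 := by decide +kernel
  show ∏ i ∈ Finset.range 2, z i ^ SG.{u}.vec 9 i = _
  rw [Finset.prod_range_succ, Finset.prod_range_one, hv.1, hv.2, zpow_one, zpow_ofNat]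

theorem diag_cent9 {z : ℕ → Fˣ} (h : SG.chi z 9 = 1) : SG.dg z ∈ cent9 F := by
  obtain ⟨-, -, hneg, h0, h1⟩ := chi_vals
  have e : SG.dg z = SG.hU 6 (((z 0)⁻¹ : Fˣ) : F) := by
    rw [SG.hU_eq_dg (show 6 < chevG2.nroots by decide)]
    refine SG.dg_congr fun i hi => ?_
    rw [chi_nine] at h
    rcases Nat.lt_succ_iff_lt_or_eq.1 (show i < 2 from hi) with h' | h'
    · obtain rfl : i = 0 := by omega
      simp [hz, h0]
    · subst h'
      simp only [hz, h1, zpow_ofNat, inv_pow]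
      exact eq_inv_of_mul_eq_one_right h
  rw [e, Sys.hU_eq, Sys.nU_eq, Sys.nU_eq, hneg]
  exact mul_mem (mul_mem (mul_mem (X_mem_cent9 (by omega) _) (X_mem_cent9 (by omega) _)) (X_mem_cent9 (by omega) _))
    (mul_mem (mul_mem (X_mem_cent9 (by omega) _) (X_mem_cent9 (by omega) _)) (X_mem_cent9 (by omega) _))

theorem nU6_cent9 : SG.nU 6 (1 : F) ∈ cent9 F := by
  rw [Sys.nU_eq, chi_vals.2.2.1]
  exact mul_mem (mul_mem (X_mem_cent9 (by omega) _) (X_mem_cent9 (by omega) _)) (X_mem_cent9 (by omega) _)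

theorem borel_centralizes {g : GL chevG2.Idx F} (hg : g ∈ chevG2.borelSubgroup F)
    (hc : g * X 9 1 = X 9 1 * g) : g ∈ cent9 F := by
  obtain ⟨u, hu, d, hd, rfl⟩ := SG.mem_borel_iff.1 hg
  obtain ⟨z, rfl⟩ := SG.exists_dg hd
  obtain ⟨b, a, c, d, e, f, rfl⟩ := exists_P hu
  have h2 : P b a c d e f * X 9 ((SG.chi z 9 : Fˣ) : F) = X 9 1 * P b a c d e f := by
    have := SG.dg_conj_xU z (show 9 < chevG2.nroots by decide) (1 : F)
    rw [mul_one] at this
    show P b a c d e f * SG.xU 9 _ = _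
    rw [← this, ← mul_assoc, ← mul_assoc, show P b a c d e f * SG.dg z * SG.xU 9 (1 : F) =
      X 9 1 * (P b a c d e f * SG.dg z) from hc, mul_assoc, mul_inv_cancel_right]
  rw [P_mul9, nine_mul] at h2
  obtain ⟨-, -, -, hd', he', hf'⟩ := P_inj h2
  have ha : a = 0 := by linear_combination -he'
  have hc0 : c = 0 := by linear_combination -hf'
  subst ha hc0
  refine mul_mem (P_mem_cent9 b d e f) (diag_cent9 (Units.ext ?_))
  rw [Units.val_one]
  linear_combination hd'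

theorem mem_cent9 {g : GL chevG2.Idx F} (hg : g ∈ chevG2.group F)
    (hc : g * X 9 1 = X 9 1 * g) : g ∈ cent9 F := by
  obtain ⟨b, hb, n, hn, b', hb', rfl⟩ := SG.exists_bnb hg
  obtain ⟨u₁, hu₁, h₁, hh₁, rfl⟩ := SG.mem_borel_iff.1 hb
  obtain ⟨h₂, hh₂, u₃, hu₃, rfl⟩ := SG.mem_borel_right hb'
  have hm : h₁ * n * h₂ ∈ chevG2.monomialSubgroup F :=
    mul_mem (mul_mem (SG.diag_le_mono hh₁) hn) (SG.diag_le_mono hh₂)
  obtain ⟨L₀, hL₀, d, hd, em⟩ := SG.mem_mono_iff.1 hm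
  have hact : SG.Acts (h₁ * n * h₂) (SG.wprod L₀) := by
    rw [em]; simpa using SG.acts_mul (SG.acts_diag hd) (SG.acts_nw (F := F) hL₀)
  obtain ⟨a, c, e1⟩ := conj_pos_nine hu₁
  obtain ⟨a', c', e3⟩ := conj_pos_nine (inv_mem hu₃)
  rw [inv_inv] at e3
  have hmid : h₁ * n * h₂ * Lx 1 a' c' * (h₁ * n * h₂)⁻¹ = Lx 1 a c := by
    rw [← e1, ← e3]
    calc h₁ * n * h₂ * (u₃ * X 9 1 * u₃⁻¹) * (h₁ * n * h₂)⁻¹
        = u₁⁻¹ * ((u₁ * h₁ * n * (h₂ * u₃)) * X 9 1 * (u₁ * h₁ * n * (h₂ * u₃))⁻¹) * u₁ := by group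
      _ = u₁⁻¹ * X 9 1 * u₁ := by rw [hc, mul_inv_cancel_right]
  have hfix := fix_nine (SG.wprod_mem_weyl L₀) hact hmid
  obtain ⟨L, hL, eL⟩ := weyl_words (SG.wprod_mem_weyl L₀)
  rw [eL] at hact hfix
  rw [show u₁ * h₁ * n * (h₂ * u₃) = u₁ * (h₁ * n * h₂) * u₃ by group] at hc ⊢
  rcases words_fix_nine.{u} L hL hfix with rfl | rfl
  · refine borel_centralizes (mul_mem (mul_mem ((le_sup_left : chevG2.posUnipotent F ≤ chevG2.borelSubgroup F) hu₁)
      ((le_sup_right : chevG2.diagonalSubgroup F ≤ chevG2.borelSubgroup F) (SG.mem_diag_of_pos hm hact fun r hr => ?_))) ((le_sup_left : chevG2.posUnipotent F ≤ chevG2.borelSubgroup F) hu₃)) hc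
    simpa using hr
  · obtain ⟨bb, aa, cc, dd, ee, ff, rfl⟩ := exists_P hu₃
    set γ : F := cc + aa * bb with hγ
    set k : GL chevG2.Idx F := X 8 γ * X 7 aa * P bb aa cc dd ee ff with hk
    have hk9 : k ∈ cent9 F := by
      have : ∃ d' e' f', k = P bb 0 0 d' e' f' := by
        rw [hk, ← P_single.2.2.2.1, P_mul7, P_mul, P_mul6, P_mul7, P_mul8]
        rw [P_mul9, P_mul10, P_mul11]
        simp only [zero_add, mul_zero, add_zero, zero_mul, CharTwo.add_self_eq_zero]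
        rw [show (aa * bb + γ + cc : F) = 0 by
          rw [hγ]; linear_combination (aa * bb + cc) * CharTwo.two_eq_zero (R := F)]
        exact ⟨_, _, _, rfl⟩
      obtain ⟨d', e', f', e⟩ := this
      rw [e]; exact P_mem_cent9 _ _ _ _
    have hu' : (h₁ * n * h₂) * (X 7 aa * X 8 γ) * (SG.nU 6 (1 : F))⁻¹ ∈ chevG2.borelSubgroup F := by
      have hN : h₁ * n * h₂ * (SG.nU 6 (1 : F))⁻¹ ∈ chevG2.diagonalSubgroup F := by
        have hq : SG.nU 6 (1 : F) = SG.nU (chevG2.simple 1) 1 := by rw [chi_vals.1]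
        have hq' : SG.nU 6 (1 : F) ∈ chevG2.monomialSubgroup F := by
          rw [hq]; exact SG.nU_simple_mem_mono (q := 1) (by decide)
        have h' : h₁ * n * h₂ * SG.nU 6 (1 : F) ∈ chevG2.diagonalSubgroup F :=
          SG.mem_diag_of_pos (mul_mem hm hq')
            (SG.acts_mul hact (by rw [hq]; exact SG.acts_nU (F := F) (q := 1) (by decide)))
            (fun r hr => by simpa [Sys.wprod_cons, ← mul_assoc, Sys.refl_mul_self] using hr)
        have hsq : SG.nU 6 (1 : F) * SG.nU 6 (1 : F) ∈ chevG2.diagonalSubgroup F := by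
          rw [hq]; exact SG.nU_sq_mem_diag (q := 1) (by decide)
        have : h₁ * n * h₂ * (SG.nU 6 (1 : F))⁻¹ = h₁ * n * h₂ * SG.nU 6 (1 : F) *
            (SG.nU 6 (1 : F) * SG.nU 6 (1 : F))⁻¹ := by group
        rw [this]; exact mul_mem h' (inv_mem hsq)
      obtain ⟨c7, h7⟩ := SG.acts_nU (F := F) (q := 1) (by decide) (7 : Fin 12)
      obtain ⟨c8, h8⟩ := SG.acts_nU (F := F) (q := 1) (by decide) (8 : Fin 12)
      have hr7 : ((SG.{u}.refl 1 (7 : Fin 12) : Fin chevG2.nroots) : ℕ) = 8 ∧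
          ((SG.{u}.refl 1 (8 : Fin 12) : Fin chevG2.nroots) : ℕ) = 7 := by decide +kernel
      rw [chi_vals.1, hr7.1] at h7
      rw [chi_vals.1, hr7.2] at h8
      rw [show h₁ * n * h₂ * (X 7 aa * X 8 γ) * (SG.nU 6 (1 : F))⁻¹ =
        (h₁ * n * h₂ * (SG.nU 6 (1 : F))⁻¹) * ((SG.nU 6 1 * X 7 aa * (SG.nU 6 1)⁻¹) *
          (SG.nU 6 1 * X 8 γ * (SG.nU 6 1)⁻¹)) by group]
      refine mul_mem ((le_sup_right : chevG2.diagonalSubgroup F ≤ chevG2.borelSubgroup F) hN) (mul_mem ?_ ?_)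
      · show SG.nU 6 1 * SG.xU (((7 : Fin 12) : ℕ)) aa * (SG.nU 6 1)⁻¹ ∈ _
        rw [h7]; exact (le_sup_left : chevG2.posUnipotent F ≤ chevG2.borelSubgroup F) (X_mem_pos (by omega) (by omega) _)
      · show SG.nU 6 1 * SG.xU (((8 : Fin 12) : ℕ)) γ * (SG.nU 6 1)⁻¹ ∈ _
        rw [h8]; exact (le_sup_left : chevG2.posUnipotent F ≤ chevG2.borelSubgroup F) (X_mem_pos (by omega) (by omega) _)
    have hsplit : u₁ * (h₁ * n * h₂) * P bb aa cc dd ee ff =
        u₁ * ((h₁ * n * h₂) * (X 7 aa * X 8 γ) * (SG.nU 6 (1 : F))⁻¹) * (SG.nU 6 1 * k) := by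
      have hs8 := X_sq (F := F) 8 γ
      have hs7 := X_sq (F := F) 7 aa
      have : X 7 aa * X 8 γ * k = P bb aa cc dd ee ff := by
        rw [hk, mul_assoc, ← mul_assoc (X 8 γ), ← mul_assoc (X 8 γ), hs8, one_mul, ← mul_assoc, hs7,
          one_mul]
      rw [← this]; group
    rw [hsplit] at hc ⊢
    have hnk : SG.nU 6 1 * k ∈ cent9 F := mul_mem nU6_cent9 hk9
    refine mul_mem (borel_centralizes (mul_mem ((le_sup_left : chevG2.posUnipotent F ≤ chevG2.borelSubgroup F) hu₁) hu') ?_) hnk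
    have hck := Subgroup.mem_centralizer_singleton_iff.1 (Subgroup.mem_inf.1 (cent9_le hnk)).2
    refine mul_right_cancel (b := SG.nU 6 1 * k) ?_
    rw [mul_assoc _ (X 9 (1 : F)), ← hck, ← mul_assoc, hc]
    simp only [mul_assoc]

end CfsgLib.Chev.G2Even
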