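import Cfsg.Agent.Chev.Special.RootCentralizer
import Cfsg.Agent.Chev.InstSmall
import Cfsg.Agent.Chev.BN

/-!
# Normal forms in the unipotent group of `G₂` in characteristic two

Roots: `7 = a` (short), `6 = b` (long), `8 = a+b`, `9 = 2a+b`, `10 = 3a+b`, `11 = 3a+2b`.
-/

set_option autoImplicit false
set_option linter.unusedSectionVars false

namespace CfsgLib.Chev.G2Even

open Cfsg.Lie CfsgLib.Chev Matrix

universe u

variable {F : Type u} [Field F] [CharP F 2]

/-- The description of `G₂`. -/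
noncomputable abbrev SG : Sys.{u} chevG2 := sysG2

/-- Root elements. -/
noncomputable abbrev X (r : ℕ) (t : F) : GL chevG2.Idx F := SG.xU r t

theorem comm_eq {r s : ℕ} (hr : r < 12) (hs : s < 12) (h1 : s ≠ r) (h2 : s ≠ chevG2.neg r)
    {L : List (ℕ × ℤ × ℕ × ℕ)} (h : chevG2.commTerms r s = L) (t u : F) :
    X s u * X r t = X r t * X s u *
      SG.wU (L.map fun c => (c.1, (c.2.1 : F) * t ^ c.2.2.1 * u ^ c.2.2.2)) := by
  refine Units.ext ?_
  rw [Units.val_mul, Units.val_mul, Units.val_mul, Sys.coe_xU, Sys.coe_xU, Sys.coe_wU,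
    SG.comm r s (show r < chevG2.nroots from hr) (show s < chevG2.nroots from hs) h1 h2 t u,
    ChevalleyDatum.commWord, h]
  simp only [CharTwo.neg_eq]

theorem X_comm {r s : ℕ} (hr : r < 12) (hs : s < 12) (h1 : s ≠ r) (h2 : s ≠ chevG2.neg r)
    (h : chevG2.commTerms r s = []) (t u : F) : X r t * X s u = X s u * X r t := by
  symm; rw [comm_eq hr hs h1 h2 h]; simp [Sys.wU]

theorem three_eq : (3 : F) = 1 := by
  linear_combination (CharTwo.two_eq_zero (R := F))

theorem X11_comm (r : ℕ) (hr : r < 12) (hr' : 6 ≤ r) (t u : F) : X r t * X 11 u = X 11 u * X r t :=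
  Subgroup.mem_centralizer_singleton_iff.1
    (SG.pos_centralizes_top (by decide) u (SG.xU_mem_posUnipotent (by exact hr') (show r < chevG2.nroots from hr) t))

theorem c89 (t u : F) : X 9 t * X 8 u = X 8 u * X 9 t * X 11 (t * u) := by
  rw [comm_eq (r := 8) (s := 9) (by decide) (by decide) (by decide) (by decide)
    (L := [(11, 3, 1, 1)]) (by decide +kernel)]
  simp [Sys.wU, CharTwo.neg_eq, three_eq, mul_comm]

theorem c79 (t u : F) : X 9 t * X 7 u = X 7 u * X 9 t * X 10 (t * u) := by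
  rw [comm_eq (r := 7) (s := 9) (by decide) (by decide) (by decide) (by decide)
    (L := [(10, 3, 1, 1)]) (by decide +kernel)]
  simp [Sys.wU, CharTwo.neg_eq, three_eq, mul_comm]

theorem c78 (t u : F) : X 8 t * X 7 u = X 7 u * X 8 t * (X 10 (t * u ^ 2) * X 11 (t ^ 2 * u)) := by
  rw [comm_eq (r := 7) (s := 8) (by decide) (by decide) (by decide) (by decide)
    (L := [(9, -2, 1, 1), (10, -3, 2, 1), (11, 3, 1, 2)]) (by decide +kernel)]
  simp [Sys.wU, CharTwo.neg_eq, three_eq, CharTwo.two_eq_zero, mul_comm]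

theorem c67 (t u : F) : X 7 t * X 6 u = X 6 u * X 7 t *
    (X 8 (t * u) * (X 9 (t ^ 2 * u) * X 10 (t ^ 3 * u))) := by
  rw [comm_eq (r := 6) (s := 7) (by decide) (by decide) (by decide) (by decide)
    (L := [(8, 1, 1, 1), (9, 1, 1, 2), (10, -1, 1, 3), (11, -2, 2, 3)]) (by decide +kernel)]
  simp [Sys.wU, CharTwo.neg_eq, CharTwo.two_eq_zero, mul_comm]

theorem c610 (t u : F) : X 10 t * X 6 u = X 6 u * X 10 t * X 11 (t * u) := by
  rw [comm_eq (r := 6) (s := 10) (by decide) (by decide) (by decide) (by decide)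
    (L := [(11, 1, 1, 1)]) (by decide +kernel)]
  simp [Sys.wU, CharTwo.neg_eq, mul_comm]

theorem X_add (r : ℕ) (t u : F) : X r t * X r u = X r (t + u) := SG.xU_add r t u

/-- The normal form. -/
noncomputable def P (b a c d e f : F) : GL chevG2.Idx F :=
  X 6 b * X 7 a * X 8 c * X 9 d * X 10 e * X 11 f

theorem P_mul11 (b a c d e f t : F) : P b a c d e f * X 11 t = P b a c d e (f + t) := by
  rw [P, mul_assoc, X_add]; rfl

theorem P_mul10 (b a c d e f t : F) : P b a c d e f * X 10 t = P b a c d (e + t) f := by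
  rw [P, mul_assoc _ (X 11 f), ← X11_comm 10 (by omega) (by omega), ← mul_assoc,
    mul_assoc _ (X 10 e), X_add]; rfl

theorem P_mul9 (b a c d e f t : F) : P b a c d e f * X 9 t = P b a c (d + t) e f := by
  have h : X 9 t * X 10 e = X 10 e * X 9 t :=
    X_comm (by omega) (by omega) (by omega) (by decide) (by decide +kernel) t e
  rw [P, mul_assoc _ (X 11 f), ← X11_comm 9 (by omega) (by omega), ← mul_assoc,
    mul_assoc _ (X 10 e), ← h, ← mul_assoc, mul_assoc _ (X 9 d), X_add]; rfl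

theorem P_mul8 (b a c d e f t : F) :
    P b a c d e f * X 8 t = P b a (c + t) d e (f + d * t) := by
  have h : X 8 t * X 10 e = X 10 e * X 8 t :=
    X_comm (by omega) (by omega) (by omega) (by decide) (by decide +kernel) t e
  rw [← P_mul11 b a (c + t) d e f (d * t)]
  rw [P, mul_assoc _ (X 11 f), ← X11_comm 8 (by omega) (by omega), ← mul_assoc,
    mul_assoc _ (X 10 e), ← h, ← mul_assoc, mul_assoc _ (X 9 d), c89, ← mul_assoc, ← mul_assoc,
    mul_assoc _ (X 8 c), X_add, P, mul_assoc _ (X 11 (d * t)), ← X11_comm 10 (by omega) (by omega),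
    ← mul_assoc, mul_assoc _ (X 11 (d * t)) (X 11 f), X_add, add_comm (d * t) f, mul_assoc _ (X 11 f),
    X_add]

theorem P_mul7 (b a c d e f t : F) :
    P b a c d e f * X 7 t = P b (a + t) c d (e + d * t + c * t ^ 2) (f + c ^ 2 * t) := by
  have h : X 7 t * X 10 e = X 10 e * X 7 t :=
    X_comm (by omega) (by omega) (by omega) (by decide) (by decide +kernel) t e
  calc P b a c d e f * X 7 t = X 6 b * X 7 a * X 8 c * (X 9 d * X 7 t) * X 10 e * X 11 f := by
        rw [P]; simp only [mul_assoc]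
        rw [← X11_comm 7 (by omega) (by omega) t f, ← mul_assoc (X 10 e) (X 7 t), ← h]
        simp only [mul_assoc]
    _ = X 6 b * X 7 a * (X 8 c * X 7 t) * X 9 d * X 10 (d * t) * X 10 e * X 11 f := by
        rw [c79]; simp only [mul_assoc]
    _ = X 6 b * (X 7 a * X 7 t) * X 8 c * (X 10 (c * t ^ 2) * X 11 (c ^ 2 * t)) * X 9 d *
        X 10 (d * t) * X 10 e * X 11 f := by
        rw [c78]; simp only [mul_assoc]
    _ = P b (a + t) c 0 0 0 * X 10 (c * t ^ 2) * X 11 (c ^ 2 * t) * X 9 d * X 10 (d * t) * X 10 e *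
        X 11 f := by
        rw [X_add, P]
        simp only [X, Sys.xU_zero, mul_one, mul_assoc]
    _ = P b (a + t) c d (e + d * t + c * t ^ 2) (f + c ^ 2 * t) := by
        rw [P_mul10, P_mul11, P_mul9, P_mul10, P_mul10, P_mul11]
        ring_nf

theorem P_mul6 (b a c d e f t : F) : P b a c d e f * X 6 t =
    P (b + t) a (a * t + c) (a ^ 2 * t + d) (a ^ 3 * t + e)
      (f + e * t + a ^ 2 * t * c) := by
  have h9 : X 6 t * X 9 d = X 9 d * X 6 t :=
    X_comm (by omega) (by omega) (by omega) (by decide) (by decide +kernel) t d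
  have h8 : X 6 t * X 8 c = X 8 c * X 6 t :=
    X_comm (by omega) (by omega) (by omega) (by decide) (by decide +kernel) t c
  calc P b a c d e f * X 6 t = X 6 b * X 7 a * X 8 c * X 9 d * (X 10 e * X 6 t) * X 11 f := by
        rw [P]; simp only [mul_assoc]
        rw [← X11_comm 6 (by omega) (by omega) t f]
    _ = X 6 b * (X 7 a * X 6 t) * X 8 c * X 9 d * X 10 e * X 11 (e * t) * X 11 f := by
        rw [c610]; simp only [mul_assoc]
        rw [← mul_assoc (X 9 d) (X 6 t), ← h9, mul_assoc, ← mul_assoc (X 8 c) (X 6 t), ← h8]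
        simp only [mul_assoc]
    _ = P (b + t) a (a * t) (a ^ 2 * t) (a ^ 3 * t) 0 * X 8 c * X 9 d * X 10 e *
        X 11 (e * t) * X 11 f := by
        rw [c67, P, ← X_add 6 b t]; simp only [X, Sys.xU_zero, mul_one, mul_assoc]
    _ = _ := by
        rw [P_mul8, P_mul9, P_mul10, P_mul11, P_mul11]
        ring_nf

theorem P_single :
    (∀ t : F, P 0 0 0 0 0 t = X 11 t) ∧ (∀ t : F, P 0 0 0 0 t 0 = X 10 t) ∧
    (∀ t : F, P 0 0 0 t 0 0 = X 9 t) ∧ (∀ t : F, P 0 0 t 0 0 0 = X 8 t) ∧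
    (∀ t : F, P 0 t 0 0 0 0 = X 7 t) ∧ (∀ t : F, P t 0 0 0 0 0 = X 6 t) := by
  refine ⟨?_, ?_, ?_, ?_, ?_, ?_⟩ <;> intro t <;> simp [P]

theorem P_zero : P (0 : F) 0 0 0 0 0 = 1 := by simp [P]

theorem P_mem (b a c d e f : F) : P b a c d e f ∈ chevG2.posUnipotent F := by
  have : ∀ r, 6 ≤ r → r < 12 → ∀ t : F, X r t ∈ chevG2.posUnipotent F := fun r h h' t =>
    SG.xU_mem_posUnipotent (by exact h) (show r < chevG2.nroots from h') t
  exact mul_mem (mul_mem (mul_mem (mul_mem (mul_mem (this 6 (by omega) (by omega) _)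
    (this 7 (by omega) (by omega) _)) (this 8 (by omega) (by omega) _))
    (this 9 (by omega) (by omega) _)) (this 10 (by omega) (by omega) _))
    (this 11 (by omega) (by omega) _)

theorem P_eq_prodFrom (b a c d e f : F) :
    P b a c d e f = SG.prodFrom (fun r => [b, a, c, d, e, f].getD (r - 6) 0) 6 := by
  rw [Sys.prodFrom, show chevG2.nroots - 6 = 6 from rfl]
  simp [Sys.wU, P, List.range'_succ, mul_assoc]

theorem exists_P {g : GL chevG2.Idx F} (hg : g ∈ chevG2.posUnipotent F) :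
    ∃ b a c d e f : F, g = P b a c d e f := by
  rw [SG.posUnipotent_eq, show chevG2.nroots / 2 = 6 from rfl] at hg
  obtain ⟨t, -, rfl⟩ := SG.exists_prodFrom (show chevG2.nroots / 2 ≤ 6 from le_rfl) hg
  refine ⟨t 6, t 7, t 8, t 9, t 10, t 11, ?_⟩
  rw [P_eq_prodFrom]
  refine SG.prodFrom_congr fun r h1 h2 => ?_
  obtain rfl | rfl | rfl | rfl | rfl | rfl : r = 6 ∨ r = 7 ∨ r = 8 ∨ r = 9 ∨ r = 10 ∨ r = 11 := by
    have : r < 12 := h2
    omega
  all_goals simp

theorem P_inj {b a c d e f b' a' c' d' e' f' : F} (h : P b a c d e f = P b' a' c' d' e' f') :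
    b = b' ∧ a = a' ∧ c = c' ∧ d = d' ∧ e = e' ∧ f = f' := by
  rw [P_eq_prodFrom, P_eq_prodFrom] at h
  have key := SG.prodFrom_inj (show chevG2.nroots / 2 ≤ 6 from le_rfl) h
  have h6 := key 6 le_rfl (by decide)
  have h7 := key 7 (by omega) (by decide)
  have h8 := key 8 (by omega) (by decide)
  have h9 := key 9 (by omega) (by decide)
  have h10 := key 10 (by omega) (by decide)
  have h11 := key 11 (by omega) (by decide)
  simp at h6 h7 h8 h9 h10 h11
  exact ⟨h6, h7, h8, h9, h10, h11⟩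

theorem P_mul (b a c d e f b' a' c' d' e' f' : F) : P b a c d e f * P b' a' c' d' e' f' =
    P b a c d e f * X 6 b' * X 7 a' * X 8 c' * X 9 d' * X 10 e' * X 11 f' := by
  rw [P, P]; group

theorem P_inv (b a c d e f : F) : (P b a c d e f)⁻¹ =
    X 11 f * X 10 e * X 9 d * X 8 c * X 7 a * X 6 b := by
  simp only [P, _root_.mul_inv_rev, X, Sys.xU_inv, CharTwo.neg_eq, mul_assoc]

theorem P_inv_eq (b a c d e f : F) : (P b a c d e f)⁻¹ =
    P b a (a * b + c) (a ^ 2 * b + d) (a ^ 3 * b + (e + d * a + c * a ^ 2))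
      ((f + d * c + c ^ 2 * a) + (e + d * a + c * a ^ 2) * b + a ^ 2 * b * c) := by
  rw [P_inv, ← P_single.1 f]
  simp only [P_mul10, P_mul9, P_mul8, P_mul7, P_mul6, zero_add]

end CfsgLib.Chev.G2Even
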